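import Cfsg.Agent.ClassesPi.Basic
import Cfsg.Prelude.Def_Transfer
import Cfsg.Prelude.Def_OddOrderLocal

/-!
# Many classes of p-elements force p-nilpotency (odd p)
-/

namespace CfsgLib.ClassesPi

open scoped commutatorElement

variable {G : Type*} [Group G] [Finite G]

theorem kPi_eq_card {p : ℕ} [Fact p.Prime] (P : Sylow p G) (hab : IsMulCommutative ↥(P : Subgroup G))
    (Q : Sylow p G) (N : Subgroup G) (hN : N.Normal) (hNQ : N.IsComplement' (Q : Subgroup G)) :
    kPi ({p} : Set ℕ) G = Nat.card ↥(P : Subgroup G) := by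
  refine le_antisymm (kPi_prime_le_card P) ?_
  refine Nat.card_le_card_of_injective (pClass P) ?_
  have hcard : Nat.card N * Nat.card ↥(P : Subgroup G) = Nat.card G := by
    rw [P.card_eq_multiplicity, ← Q.card_eq_multiplicity]
    exact hNQ.card_mul
  have hco : (Nat.card N).Coprime (Nat.card ↥(P : Subgroup G)) := by
    have : N.index = Nat.card ↥(P : Subgroup G) :=
      mul_left_cancel₀ (Nat.card_pos (α := N)).ne' (N.card_mul_index.trans hcard.symm)
    have := P.card_coprime_index
    rw [show (P : Subgroup G).index = Nat.card N from mul_left_cancel₀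
      (Nat.card_pos (α := ↥(P : Subgroup G))).ne'
      ((P : Subgroup G).card_mul_index.trans (hcard.symm.trans (mul_comm _ _)))] at this
    exact this.symm
  have hdisj : N ⊓ (P : Subgroup G) = ⊥ := by
    rw [eq_bot_iff]
    intro x hx
    exact Subgroup.mem_bot.2 (orderOf_eq_one_iff.1 (Nat.eq_one_of_dvd_coprimes hco
      (N.orderOf_dvd_natCard hx.1) ((P : Subgroup G).orderOf_dvd_natCard hx.2)))
  let f : ↥(P : Subgroup G) →* G ⧸ N := (QuotientGroup.mk' N).comp (P : Subgroup G).subtype
  have hf : Function.Bijective f := by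
    rw [Nat.bijective_iff_injective_and_card]
    refine ⟨?_, ?_⟩
    · rw [← MonoidHom.ker_eq_bot_iff, eq_bot_iff]
      intro x hx
      have : (x : G) ∈ N ⊓ (P : Subgroup G) := ⟨(QuotientGroup.eq_one_iff _).1 hx, x.2⟩
      rw [hdisj, Subgroup.mem_bot] at this
      exact Subgroup.mem_bot.2 (Subtype.ext this)
    · refine mul_left_cancel₀ (Nat.card_pos (α := N)).ne' ?_
      rw [hcard]
      exact N.card_mul_index.symm
  intro x y hxy
  have hxy' : IsConj (x : G) (y : G) := ConjClasses.mk_eq_mk_iff_isConj.1 (congrArg Subtype.val hxy)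
  obtain ⟨g, hg⟩ := isConj_iff.1 hxy'
  obtain ⟨z, hz⟩ := hf.2 (QuotientGroup.mk' N g)
  apply hf.1
  change f x = QuotientGroup.mk' N (y : G)
  rw [← hg, map_mul, map_mul, map_inv, ← hz]
  change f x = f z * f x * (f z)⁻¹
  rw [← map_inv, ← map_mul, ← map_mul, hab.is_comm.comm z x, mul_assoc, mul_inv_cancel, mul_one]

theorem nilpotent_of_many {p : ℕ} [Fact p.Prime] (hp : p ≠ 2) (P : Sylow p G)
    (h : (p + 1) * Nat.card ↥(P : Subgroup G) < 2 * p * kPi ({p} : Set ℕ) G) :
    Cfsg.HasNormalPComplement p G ∧ IsMulCommutative ↥(P : Subgroup G) := by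
  classical
  have hpp : p.Prime := Fact.out
  have hp3 : 3 ≤ p := by have := hpp.two_le; omega
  have hab : IsMulCommutative ↥(P : Subgroup G) := by
    by_contra hna
    have h1 := card_conjClasses_nonabelian_le P.2 hna
    have h2 := kPi_prime_le_card_conjClasses P
    have h3 : p ^ 2 * ((p + 1) * Nat.card ↥(P : Subgroup G)) <
        2 * ((p ^ 2 + p - 1) * Nat.card ↥(P : Subgroup G)) := by
      calc p ^ 2 * ((p + 1) * Nat.card ↥(P : Subgroup G))
          < p ^ 2 * (2 * p * kPi ({p} : Set ℕ) G) := Nat.mul_lt_mul_of_pos_left h (by positivity)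
        _ = 2 * (p ^ 3 * kPi ({p} : Set ℕ) G) := by ring
        _ ≤ _ := Nat.mul_le_mul_left _ (le_trans (Nat.mul_le_mul_left _ h2) h1)
    have h4 : 2 * (p ^ 2 + p - 1) ≤ p ^ 2 * (p + 1) := by
      have h9 : 3 * p ^ 2 ≤ p * p ^ 2 := Nat.mul_le_mul_right _ hp3
      have h8 : 3 * p ≤ p ^ 2 := by rw [sq]; exact Nat.mul_le_mul_right _ hp3
      have : p ^ 2 * (p + 1) = p * p ^ 2 + p ^ 2 := by ring
      omega
    rw [← mul_assoc, ← mul_assoc] at h3
    exact absurd h3 (Nat.not_lt.2 (Nat.mul_le_mul_right _ h4))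
  refine ⟨?_, hab⟩
  suffices hNC : Subgroup.normalizer ((P : Subgroup G) : Set G) ≤
      Subgroup.centralizer ((P : Subgroup G) : Set G) from
    ⟨P, _, inferInstance, MonoidHom.ker_transferSylow_isComplement' P hNC⟩
  by_contra hNC
  set N := Subgroup.normalizer ((P : Subgroup G) : Set G) with hN
  let F : Subgroup ↥(P : Subgroup G) := (Subgroup.centralizer (N : Set G)).subgroupOf (P : Subgroup G)
  have hF : p * Nat.card F ≤ Nat.card ↥(P : Subgroup G) := by
    obtain ⟨n, hn⟩ := P.2.index F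
    have : n ≠ 0 := by
      rintro rfl
      rw [pow_zero, Subgroup.index_eq_one, Subgroup.subgroupOf_eq_top] at hn
      refine hNC fun g hg => Subgroup.mem_centralizer_iff.2 fun x hx => ?_
      exact ((Subgroup.mem_centralizer_iff.1 (hn hx)) g hg).symm
    calc p * Nat.card F ≤ F.index * Nat.card F :=
          Nat.mul_le_mul_right _ (by rw [hn]; exact Nat.le_self_pow this p)
      _ = _ := by rw [mul_comm]; exact F.card_mul_index
  have h2 : 2 * kPi ({p} : Set ℕ) G ≤ Nat.card ↥(P : Subgroup G) + Nat.card F := by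
    let T := {c : ConjClasses G // ∃ y, ConjClasses.mk y = c ∧ IsPiElt ({p} : Set ℕ) y}
    have hTdef : Nat.card T = kPi ({p} : Set ℕ) G := rfl
    have : Fintype T := Fintype.ofFinite T
    have : Fintype ↥(P : Subgroup G) := Fintype.ofFinite _
    have : Fintype F := Fintype.ofFinite _
    rw [← hTdef, Nat.card_eq_fintype_card, Nat.card_eq_fintype_card (α := ↥(P : Subgroup G))]
    set TF : Finset T := Finset.univ.filter (fun t => ∃ x : F, pClass P (x : ↥(P : Subgroup G)) = t)
    have hTF : TF.card ≤ Nat.card F := by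
      rw [Nat.card_eq_fintype_card, ← Finset.card_univ]
      refine Finset.card_le_card_of_surjOn (fun x : F => pClass P (x : ↥(P : Subgroup G))) ?_
      intro t ht
      obtain ⟨x, hx⟩ := (Finset.mem_filter.1 ht).2
      exact ⟨x, Finset.mem_coe.2 (Finset.mem_univ x), hx⟩
    have key : ∀ t : T, 2 ≤ (Finset.univ.filter (fun x => pClass P x = t)).card +
        (if t ∈ TF then 1 else 0) := by
      intro t
      obtain ⟨x, hx⟩ := pClass_surjective P t
      split
      · have : 0 < (Finset.univ.filter (fun x => pClass P x = t)).card :=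
          Finset.card_pos.2 ⟨x, by simp [hx]⟩
        omega
      · rename_i ht
        have hxF : x ∉ F := fun hxF => ht (Finset.mem_filter.2 ⟨Finset.mem_univ _, ⟨x, hxF⟩, hx⟩)
        obtain ⟨n, hn, hne⟩ : ∃ n ∈ N, n * (x : G) ≠ x * n := by
          by_contra hc
          push Not at hc
          exact hxF (Subgroup.mem_centralizer_iff.2 hc)
        have hmem : n * (x : G) * n⁻¹ ∈ (P : Subgroup G) :=
          (Subgroup.mem_normalizer_iff.1 hn (x : G)).1 x.2
        refine le_add_right (Finset.one_lt_card.2 ⟨x, by simp [hx], ⟨_, hmem⟩, ?_, ?_⟩)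
        · simp only [Finset.mem_filter, Finset.mem_univ, true_and]
          rw [← hx]
          refine Subtype.ext ?_
          exact ConjClasses.mk_eq_mk_iff_isConj.2 (isConj_iff.2 ⟨n, rfl⟩).symm
        · intro heq
          have : (x : G) = n * (x : G) * n⁻¹ := congrArg Subtype.val heq
          exact hne (by rw [eq_mul_inv_iff_mul_eq] at this; exact this.symm)
    have hs := Finset.sum_le_sum (s := (Finset.univ : Finset T)) fun t _ => key t
    rw [Finset.sum_const, smul_eq_mul, Finset.card_univ, Finset.sum_add_distrib,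
      ← Finset.card_eq_sum_card_fiberwise (fun x _ => Finset.mem_univ (pClass P x)),
      Finset.card_univ, Finset.sum_boole, Nat.cast_id, Finset.filter_mem_eq_inter,
      Finset.univ_inter] at hs
    omega
  have h3 : 2 * p * kPi ({p} : Set ℕ) G ≤ (p + 1) * Nat.card ↥(P : Subgroup G) := by
    calc 2 * p * kPi ({p} : Set ℕ) G = p * (2 * kPi ({p} : Set ℕ) G) := by ring
      _ ≤ p * (Nat.card ↥(P : Subgroup G) + Nat.card F) := Nat.mul_le_mul_left _ h2
      _ = p * Nat.card ↥(P : Subgroup G) + p * Nat.card F := Nat.mul_add _ _ _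
      _ ≤ p * Nat.card ↥(P : Subgroup G) + Nat.card ↥(P : Subgroup G) := Nat.add_le_add_left hF _
      _ = _ := by ring
  omega

theorem normal_complement_of_many (π : Finset ℕ) (hπ : ∀ r ∈ π, r.Prime) (h2 : 2 ∉ π) (p : ℕ)
    (hp : p ∈ π) (hmin : ∀ r ∈ π, p ≤ r)
    (hk : (p + 1) * π.prod (fun r => r ^ (Nat.card G).factorization r) <
      2 * p * kPi (↑π : Set ℕ) G) :
    (∃ N : Subgroup G, N.Normal ∧ (∀ r : ℕ, r.Prime → r ∣ Nat.card ↥N → r ∉ π) ∧
      ∀ r : ℕ, r.Prime → r ∣ N.index → r ∈ π) ∧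
      ∃ H : Subgroup G, Cfsg.IsPiHall (↑π : Set ℕ) H ∧ IsMulCommutative ↥H := by
  classical
  have key : ∀ r ∈ π, ∃ M : Subgroup G, M.Normal ∧ ¬ r ∣ Nat.card M ∧
      (∃ k, M.index = r ^ k) ∧ commutator G ≤ M := by
    intro r hr
    have : Fact r.Prime := ⟨hπ r hr⟩
    obtain ⟨P⟩ : Nonempty (Sylow r G) := inferInstance
    have hrest : 0 < (π.erase r).prod (fun q => q ^ (Nat.card G).factorization q) :=
      Finset.prod_pos fun q hq => pow_pos (hπ q (Finset.mem_of_mem_erase hq)).pos _
    have hgt : (p + 1) * Nat.card ↥(P : Subgroup G) < 2 * p * kPi ({r} : Set ℕ) G := by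
      refine Nat.lt_of_mul_lt_mul_right (a := (π.erase r).prod (fun q => q ^ (Nat.card G).factorization q)) ?_
      rw [P.card_eq_multiplicity, mul_assoc, mul_assoc (2 * p)]
      rw [Finset.mul_prod_erase π (fun q => q ^ (Nat.card G).factorization q) hr]
      exact lt_of_lt_of_le hk (Nat.mul_le_mul_left _ (kPi_le_prime_mul π hπ hr))
    have hgt' : (r + 1) * Nat.card ↥(P : Subgroup G) < 2 * r * kPi ({r} : Set ℕ) G := by
      refine Nat.lt_of_mul_lt_mul_left (a := p) ?_
      calc p * ((r + 1) * Nat.card ↥(P : Subgroup G))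
          ≤ r * ((p + 1) * Nat.card ↥(P : Subgroup G)) := by
            rw [← mul_assoc, ← mul_assoc]
            refine Nat.mul_le_mul_right _ ?_
            have := hmin r hr
            rw [Nat.mul_add, Nat.mul_add, mul_one, mul_one, mul_comm p r]
            omega
        _ < r * (2 * p * kPi ({r} : Set ℕ) G) := Nat.mul_lt_mul_of_pos_left hgt (hπ r hr).pos
        _ = p * (2 * r * kPi ({r} : Set ℕ) G) := by ring
    obtain ⟨⟨Q, M, hM, hMQ⟩, hab⟩ := nilpotent_of_many (fun h => h2 (h ▸ hr)) P hgt'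
    have hidx : M.index = Nat.card ↥(Q : Subgroup G) :=
      mul_left_cancel₀ (Nat.card_pos (α := M)).ne' (M.card_mul_index.trans hMQ.card_mul.symm)
    refine ⟨M, hM, ?_, ⟨_, hidx.trans Q.card_eq_multiplicity⟩, ?_⟩
    · have hMi : Nat.card M = (Q : Subgroup G).index :=
        mul_left_cancel₀ (Nat.card_pos (α := ↥(Q : Subgroup G))).ne'
          ((mul_comm _ _).trans (hMQ.card_mul.trans (Q : Subgroup G).card_mul_index.symm))
      rw [hMi]
      exact Sylow.not_dvd_index Q
    · have habQ : IsMulCommutative ↥(Q : Subgroup G) :=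
        ⟨⟨fun a b => (Sylow.equiv Q P).injective (by
          rw [map_mul, map_mul]; exact hab.is_comm.comm _ _)⟩⟩
      let e := hMQ.symm.QuotientMulEquiv
      rw [commutator_def, Subgroup.commutator_le]
      intro a _ b _
      rw [← QuotientGroup.eq_one_iff, ← QuotientGroup.mk'_apply, map_commutatorElement,
        commutatorElement_eq_one_iff_commute]
      exact e.injective (by rw [map_mul, map_mul]; exact habQ.is_comm.comm _ _)
  choose! M hMn hMr hMi hMc using key
  let N : Subgroup G := ⨅ r : π, M r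
  have hNle : ∀ r ∈ π, N ≤ M r := fun r hr => iInf_le (fun r : π => M r) ⟨r, hr⟩
  have hcomm : commutator G ≤ N := le_iInf fun r => hMc r r.2
  have hNn : N.Normal := Subgroup.Normal.of_commutator_le (H := N) (h := hcomm)
  have hN1 : ∀ r : ℕ, r.Prime → r ∣ Nat.card ↥N → r ∉ π := fun r _ hd hrπ =>
    hMr r hrπ (hd.trans (Subgroup.card_dvd_of_le (hNle r hrπ)))
  have hN2 : ∀ r : ℕ, r.Prime → r ∣ N.index → r ∈ π := by
    intro r hr hd
    have : ∀ r : π, (M r).Normal := fun r => hMn r r.2
    let f : G →* ∀ r : π, G ⧸ M r := MonoidHom.mk' (fun g r => QuotientGroup.mk' (M r) g)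
      (fun a b => funext fun r => map_mul _ a b)
    have hker : f.ker = N := by
      ext g
      simp [f, N, funext_iff, Subgroup.mem_iInf, QuotientGroup.eq_one_iff]
    have : N.index ∣ Nat.card (∀ r : π, G ⧸ M r) := by
      rw [← hker, Subgroup.index_ker]
      exact Subgroup.card_subgroup_dvd_card _
    rw [Nat.card_pi] at this
    obtain ⟨q, -, hq⟩ := (Prime.dvd_finset_prod_iff hr.prime _).1 (hd.trans this)
    obtain ⟨k, hk⟩ := hMi q q.2
    rw [← Subgroup.index_eq_card, hk] at hq
    have := (Nat.prime_dvd_prime_iff_eq hr (hπ q q.2)).1 (hr.dvd_of_dvd_pow hq)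
    exact this ▸ q.2
  refine ⟨⟨N, hNn, hN1, hN2⟩, ?_⟩
  have hco : (Nat.card N).Coprime N.index :=
    Nat.coprime_of_dvd fun r hr h1 h2 => hN1 r hr h1 (hN2 r hr h2)
  obtain ⟨H, hH⟩ := Subgroup.exists_left_complement'_of_coprime hco
  have hHc : Nat.card H = N.index :=
    mul_left_cancel₀ (Nat.card_pos (α := N)).ne'
      (((mul_comm _ _).trans hH.card_mul).trans N.card_mul_index.symm)
  have hHi : H.index = Nat.card N :=
    mul_left_cancel₀ (Nat.card_pos (α := H)).ne' (H.card_mul_index.trans hH.card_mul.symm)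
  refine ⟨H, ⟨fun r hr hd => Finset.mem_coe.2 (hN2 r hr (hHc ▸ hd)), fun r hr hrπ hd =>
    hN1 r hr (hHi ▸ hd) (Finset.mem_coe.1 hrπ)⟩, ⟨⟨fun a b => Subtype.ext ?_⟩⟩⟩
  have hab : ⁅(a : G), (b : G)⁆ ∈ H ⊓ N :=
    ⟨H.mul_mem (H.mul_mem (H.mul_mem a.2 b.2) (H.inv_mem a.2)) (H.inv_mem b.2), hcomm (by
      rw [commutator_def]; exact Subgroup.commutator_mem_commutator (Subgroup.mem_top _) (Subgroup.mem_top _))⟩
  rw [hH.disjoint.eq_bot, Subgroup.mem_bot, commutatorElement_eq_one_iff_commute] at hab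
  exact hab.eq

end CfsgLib.ClassesPi
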