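import Cfsg.Agent.ClassesPi.Nilpotent

/-!
# Many classes of π-elements in a group of odd order
-/

namespace CfsgLib.ClassesPi

open scoped commutatorElement

variable {G : Type*} [Group G] [Finite G]

lemma nilpotent_odd {p : ℕ} [Fact p.Prime] (hG : Odd (Nat.card G)) (hp : p ≠ 2) (P : Sylow p G)
    (h : Nat.card ↥(P : Subgroup G) < 2 * kPi ({p} : Set ℕ) G) :
    Cfsg.HasNormalPComplement p G ∧ IsMulCommutative ↥(P : Subgroup G) := by
  classical
  have hpp : p.Prime := Fact.out
  have hp3 : 3 ≤ p := by have := hpp.two_le; omega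
  have hab : IsMulCommutative ↥(P : Subgroup G) := by
    by_contra hna
    have h1 := card_conjClasses_nonabelian_le P.2 hna
    have h2 := kPi_prime_le_card_conjClasses P
    have h3 : 2 * (p ^ 2 + p - 1) ≤ p ^ 3 := by
      have h9 : 3 * p ^ 2 ≤ p * p ^ 2 := Nat.mul_le_mul_right _ hp3
      have h8 : 3 * p ≤ p ^ 2 := by rw [sq]; exact Nat.mul_le_mul_right _ hp3
      have : p ^ 3 = p * p ^ 2 := by ring
      omega
    have h4 : p ^ 3 * (2 * kPi ({p} : Set ℕ) G) ≤ p ^ 3 * Nat.card ↥(P : Subgroup G) := by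
      calc p ^ 3 * (2 * kPi ({p} : Set ℕ) G) ≤ 2 * (p ^ 3 * Nat.card (ConjClasses ↥(P : Subgroup G))) := by
            rw [mul_left_comm]; exact Nat.mul_le_mul_left _ (Nat.mul_le_mul_left _ h2)
        _ ≤ 2 * ((p ^ 2 + p - 1) * Nat.card ↥(P : Subgroup G)) := Nat.mul_le_mul_left _ h1
        _ ≤ p ^ 3 * Nat.card ↥(P : Subgroup G) := by rw [← mul_assoc]; exact Nat.mul_le_mul_right _ h3
    exact absurd (Nat.le_of_mul_le_mul_left h4 (pow_pos hpp.pos 3)) (by omega)
  refine ⟨?_, hab⟩
  suffices hNC : Subgroup.normalizer ((P : Subgroup G) : Set G) ≤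
      Subgroup.centralizer ((P : Subgroup G) : Set G) from
    ⟨P, _, inferInstance, MonoidHom.ker_transferSylow_isComplement' P hNC⟩
  by_contra hNC
  set N := Subgroup.normalizer ((P : Subgroup G) : Set G) with hN
  let F : Subgroup ↥(P : Subgroup G) := (Subgroup.centralizer (N : Set G)).subgroupOf (P : Subgroup G)
  haveI := hab
  have hidx : 5 ≤ F.index := by
    obtain ⟨k, hk⟩ := P.2.index F
    rcases k with - | k
    · exfalso
      rw [pow_zero, Subgroup.index_eq_one, Subgroup.subgroupOf_eq_top] at hk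
      exact hNC fun g hg => Subgroup.mem_centralizer_iff.2 fun x hx =>
        ((Subgroup.mem_centralizer_iff.1 (hk hx)) g hg).symm
    by_contra hlt
    rcases k with - | k
    swap
    · have : 3 * 3 ≤ p ^ (k + 2) := by
        calc 3 * 3 ≤ p * p := Nat.mul_le_mul hp3 hp3
          _ = p ^ 2 := (sq p).symm
          _ ≤ _ := Nat.pow_le_pow_right hpp.pos (by omega)
      exact hlt (by rw [hk, show k + 1 + 1 = k + 2 from rfl]; omega)
    rw [zero_add, pow_one] at hk
    have hp3' : p = 3 := by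
      have : p ≠ 4 := fun h => by rw [h] at hpp; exact absurd hpp (by norm_num)
      omega
    -- an automiser of odd order fixes the quotient of order three
    refine hNC fun g hg => Subgroup.mem_centralizer_iff.2 fun x hx => ?_
    have hconjP : ∀ y ∈ (P : Subgroup G), g * y * g⁻¹ ∈ (P : Subgroup G) := fun y hy =>
      (Subgroup.mem_normalizer_iff.1 hg y).1 hy
    have hfix : ∀ y : ↥(P : Subgroup G), y ∈ F → g * (y : G) * g⁻¹ = y := fun y hy => by
      rw [Subgroup.mem_centralizer_iff.1 (Subgroup.mem_subgroupOf.1 hy) g hg, mul_inv_cancel_right]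
    let c : ↥(P : Subgroup G) → ↥(P : Subgroup G) := fun y => ⟨g * y * g⁻¹, hconjP _ y.2⟩
    have hcF : ∀ y, c y ∈ F → y ∈ F := fun y hy => by
      have e : (c y : G) = y := mul_inv_eq_iff_eq_mul.2 (by
        have h5 := hfix _ hy
        exact mul_inv_eq_iff_eq_mul.1 ((MulAut.conj g).injective h5))
      rwa [show c y = y from Subtype.ext e] at hy
    haveI : F.Normal := ⟨fun a ha b => by rwa [mul_comm' b a, mul_inv_cancel_right]⟩
    haveI := Fintype.ofFinite (↥(P : Subgroup G) ⧸ F)
    have hq : Nat.card (↥(P : Subgroup G) ⧸ F) = 3 := by rw [← Subgroup.index_eq_card, hk, hp3']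
    -- the square of `g` moves `x` only inside `F`
    have hsq : ∀ y : ↥(P : Subgroup G), c (c y) * y⁻¹ ∈ F := fun y => by
      by_cases hy : y ∈ F
      · rw [show c y = y from Subtype.ext (hfix y hy), show c y = y from Subtype.ext (hfix y hy), mul_inv_cancel]
        exact F.one_mem
      have n1 : (QuotientGroup.mk y : ↥(P : Subgroup G) ⧸ F) ≠ 1 := fun h => hy ((QuotientGroup.eq_one_iff _).1 h)
      have n2 : (QuotientGroup.mk (c y) : ↥(P : Subgroup G) ⧸ F) ≠ 1 := fun h => hy (hcF _ ((QuotientGroup.eq_one_iff _).1 h))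
      have n3 : (QuotientGroup.mk (c (c y)) : ↥(P : Subgroup G) ⧸ F) ≠ 1 :=
        fun h => hy (hcF _ (hcF _ ((QuotientGroup.eq_one_iff _).1 h)))
      rw [← div_eq_mul_inv, ← QuotientGroup.eq_iff_div_mem]
      by_contra hne
      have e12 : (QuotientGroup.mk (c y) : ↥(P : Subgroup G) ⧸ F) ≠ QuotientGroup.mk y := fun e => hne (by
        have e' := QuotientGroup.eq_iff_div_mem.1 e
        have h6 : c (c y / y) = c (c y) / c y := by
          refine Subtype.ext ?_
          show g * ((c y : G) / y) * g⁻¹ = g * (c y : G) * g⁻¹ / (g * (y : G) * g⁻¹)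
          simp only [div_eq_mul_inv]
          group
        rw [show c (c y / y) = c y / y from Subtype.ext (hfix _ e')] at h6
        rw [QuotientGroup.eq_iff_div_mem.2 (h6 ▸ e' : c (c y) / c y ∈ F)]
        exact e)
      have e23 : (QuotientGroup.mk (c (c y)) : ↥(P : Subgroup G) ⧸ F) ≠ QuotientGroup.mk (c y) := fun e => e12 (by
        have e' := QuotientGroup.eq_iff_div_mem.1 e
        have h6 : c (c y / y) = c (c y) / c y := by
          refine Subtype.ext ?_
          show g * ((c y : G) / y) * g⁻¹ = g * (c y : G) * g⁻¹ / (g * (y : G) * g⁻¹)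
          simp only [div_eq_mul_inv]
          group
        exact QuotientGroup.eq_iff_div_mem.2 (hcF _ (h6 ▸ e')))
      have h4 : ({1, QuotientGroup.mk y, QuotientGroup.mk (c y), QuotientGroup.mk (c (c y))} :
          Finset (↥(P : Subgroup G) ⧸ F)).card = 4 := by
        rw [Finset.card_insert_of_notMem (by simp [n1.symm, n2.symm, n3.symm]),
          Finset.card_insert_of_notMem (by simp [e12.symm, Ne.symm hne]),
          Finset.card_insert_of_notMem (by simp [e23.symm]), Finset.card_singleton]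
      have := Finset.card_le_univ ({1, QuotientGroup.mk y, QuotientGroup.mk (c y), QuotientGroup.mk (c (c y))} :
          Finset (↥(P : Subgroup G) ⧸ F))
      rw [h4, ← Nat.card_eq_fintype_card, hq] at this
      omega
    -- hence `g ^ 2` acts on `x` by a translation inside `F`, of order prime to three
    set d := c (c ⟨x, hx⟩) * (⟨x, hx⟩ : ↥(P : Subgroup G))⁻¹ with hd
    have hdF : d ∈ F := hsq _
    have hgd : g * (d : G) * g⁻¹ = d := hfix d hdF
    have hstep : g ^ 2 * x * (g ^ 2)⁻¹ = (d : G) * x := by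
      rw [hd]; simp [c, pow_two, mul_assoc]
    have hiter : ∀ k : ℕ, (g ^ 2) ^ k * x * ((g ^ 2) ^ k)⁻¹ = (d : G) ^ k * x := fun k => by
      induction k with
      | zero => simp
      | succ k ih =>
        have hdc : Commute (g ^ 2) ((d : G) ^ k) :=
          ((show Commute g (d : G) from mul_inv_eq_iff_eq_mul.1 hgd).pow_pow 2 k)
        calc (g ^ 2) ^ (k + 1) * x * ((g ^ 2) ^ (k + 1))⁻¹
            = g ^ 2 * ((g ^ 2) ^ k * x * ((g ^ 2) ^ k)⁻¹) * (g ^ 2)⁻¹ := by rw [pow_succ']; group
          _ = g ^ 2 * ((d : G) ^ k * x) * (g ^ 2)⁻¹ := by rw [ih]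
          _ = (d : G) ^ k * (g ^ 2 * x * (g ^ 2)⁻¹) := by rw [← mul_assoc (g ^ 2), hdc.eq]; group
          _ = (d : G) ^ (k + 1) * x := by rw [hstep, ← mul_assoc, ← pow_succ]
    haveI hPn : ((P : Subgroup G).subgroupOf N).Normal := Subgroup.normal_subgroupOf_of_le_normalizer le_rfl
    let m := ((P : Subgroup G).subgroupOf N).index
    have hgm : g ^ m ∈ (P : Subgroup G) := by
      have h7 : ((⟨g, hg⟩ : ↥N)) ^ m ∈ (P : Subgroup G).subgroupOf N := Subgroup.pow_index_mem _ _
      exact h7
    have h8 := hiter m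
    rw [show (g ^ 2) ^ m = (g ^ m) ^ 2 by rw [← pow_mul, ← pow_mul, mul_comm]] at h8
    rw [show (g ^ m) ^ 2 * x = x * (g ^ m) ^ 2 from congrArg Subtype.val
      (mul_comm' (⟨_, (P : Subgroup G).pow_mem hgm 2⟩ : ↥(P : Subgroup G)) ⟨x, hx⟩), mul_inv_cancel_right] at h8
    have hdm : orderOf (d : G) ∣ m := orderOf_dvd_of_pow_eq_one (right_eq_mul.1 h8)
    have hd1 : (d : G) = 1 := by
      refine orderOf_eq_one_iff.1 (Nat.eq_one_of_dvd_coprimes (P.card_coprime_index) ((P : Subgroup G).orderOf_dvd_natCard d.2) (hdm.trans ?_))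
      exact ⟨_, (Subgroup.relIndex_mul_index Subgroup.le_normalizer).symm⟩
    rw [hd1, one_mul] at hstep
    have hcom2 : Commute (g ^ 2) x := mul_inv_eq_iff_eq_mul.1 hstep
    obtain ⟨l, hl⟩ := (Odd.of_dvd_nat hG (orderOf_dvd_natCard g))
    have hgg : g = (g ^ 2) ^ (l + 1) := by
      rw [← pow_mul, show 2 * (l + 1) = orderOf g + 1 by omega, pow_succ, pow_orderOf_eq_one, one_mul]
    have := hcom2.pow_left (l + 1)
    rw [← hgg] at this
    exact this.eq.symm
  have hF : 5 * Nat.card F ≤ Nat.card ↥(P : Subgroup G) := by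
    calc 5 * Nat.card F ≤ F.index * Nat.card F := Nat.mul_le_mul_right _ hidx
      _ = _ := by rw [mul_comm]; exact F.card_mul_index
  have h2 : 3 * kPi ({p} : Set ℕ) G ≤ Nat.card ↥(P : Subgroup G) + 2 * Nat.card F := by
    let T := {c : ConjClasses G // ∃ y, ConjClasses.mk y = c ∧ IsPiElt ({p} : Set ℕ) y}
    have hTdef : Nat.card T = kPi ({p} : Set ℕ) G := rfl
    have : Fintype T := Fintype.ofFinite T
    have : Fintype ↥(P : Subgroup G) := Fintype.ofFinite _
    have : Fintype F := Fintype.ofFinite _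
    rw [← hTdef, Nat.card_eq_fintype_card, Nat.card_eq_fintype_card (α := ↥(P : Subgroup G))]
    set TF : Finset T := Finset.univ.filter (fun t => ∃ x : F, pClass P (x : ↥(P : Subgroup G)) = t)
    have hTF : TF.card ≤ Nat.card F := by
      rw [Nat.card_eq_fintype_card, ← Finset.card_univ]
      refine Finset.card_le_card_of_surjOn (fun x : F => pClass P (x : ↥(P : Subgroup G))) ?_
      intro t ht
      obtain ⟨x, hx⟩ := (Finset.mem_filter.1 ht).2
      exact ⟨x, Finset.mem_coe.2 (Finset.mem_univ x), hx⟩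
    have key : ∀ t : T, 3 ≤ (Finset.univ.filter (fun x => pClass P x = t)).card +
        (if t ∈ TF then 2 else 0) := by
      intro t
      obtain ⟨x, hx⟩ := pClass_surjective P t
      split
      · have : 0 < (Finset.univ.filter (fun x => pClass P x = t)).card :=
          Finset.card_pos.2 ⟨x, by simp [hx]⟩
        omega
      · rename_i ht
        have hxF : x ∉ F := fun hxF => ht (Finset.mem_filter.2 ⟨Finset.mem_univ _, ⟨x, hxF⟩, hx⟩)
        obtain ⟨n, hn, hne⟩ : ∃ n ∈ N, n * (x : G) ≠ x * n := by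
          by_contra hc
          push Not at hc
          exact hxF (Subgroup.mem_centralizer_iff.2 hc)
        have hmem : n * (x : G) * n⁻¹ ∈ (P : Subgroup G) :=
          (Subgroup.mem_normalizer_iff.1 hn (x : G)).1 x.2
        have hne2 : n * (n * (x : G) * n⁻¹) * n⁻¹ ≠ x := fun e => hne (by
          have hc : Commute (n ^ 2) (x : G) := mul_inv_eq_iff_eq_mul.1
            (show n ^ 2 * (x : G) * (n ^ 2)⁻¹ = x by rw [pow_two]; simpa [mul_assoc] using e)
          obtain ⟨l, hl⟩ := (Odd.of_dvd_nat hG (orderOf_dvd_natCard n))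
          have hnn : n = (n ^ 2) ^ (l + 1) := by
            rw [← pow_mul, show 2 * (l + 1) = orderOf n + 1 by omega, pow_succ, pow_orderOf_eq_one, one_mul]
          have := hc.pow_left (l + 1)
          rw [← hnn] at this
          exact this.eq)
        have hmem2 := (Subgroup.mem_normalizer_iff.1 hn _).1 hmem
        have hin : ∀ y : ↥(P : Subgroup G), IsConj (x : G) (y : G) → y ∈ Finset.univ.filter (fun z => pClass P z = t) := by
          intro y hy
          simp only [Finset.mem_filter, Finset.mem_univ, true_and]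
          rw [← hx]
          exact Subtype.ext (ConjClasses.mk_eq_mk_iff_isConj.2 hy.symm)
        refine le_add_right (Finset.two_lt_card.2 ⟨x, hin x (IsConj.refl _), ⟨_, hmem⟩, hin _ (isConj_iff.2 ⟨n, rfl⟩),
          ⟨_, hmem2⟩, hin _ (isConj_iff.2 ⟨n * n, by group⟩), ?_, ?_, ?_⟩)
        · exact fun e => hne (mul_inv_eq_iff_eq_mul.1 (congrArg Subtype.val e).symm)
        · exact fun e => hne2 (congrArg Subtype.val e).symm
        · intro e
          have e' : n * (x : G) * n⁻¹ = n * (n * (x : G) * n⁻¹) * n⁻¹ := congrArg Subtype.val e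
          exact hne (mul_inv_eq_iff_eq_mul.1 (mul_left_cancel (mul_right_cancel e')).symm)
    have hs := Finset.sum_le_sum (s := (Finset.univ : Finset T)) fun t _ => key t
    rw [Finset.sum_const, smul_eq_mul, Finset.card_univ, Finset.sum_add_distrib,
      ← Finset.card_eq_sum_card_fiberwise (fun x _ => Finset.mem_univ (pClass P x)),
      Finset.card_univ, Finset.sum_ite_mem, Finset.univ_inter, Finset.sum_const, smul_eq_mul] at hs
    omega
  omega

theorem complement_odd (π : Finset ℕ) (hπ : ∀ r ∈ π, r.Prime) (h2 : 2 ∉ π) (hG : Odd (Nat.card G))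
    (hk : π.prod (fun r => r ^ (Nat.card G).factorization r) < 2 * kPi (↑π : Set ℕ) G) :
    (∃ N : Subgroup G, N.Normal ∧ (∀ r : ℕ, r.Prime → r ∣ Nat.card ↥N → r ∉ π) ∧
      ∀ r : ℕ, r.Prime → r ∣ N.index → r ∈ π) ∧
      ∃ H : Subgroup G, Cfsg.IsPiHall (↑π : Set ℕ) H ∧ IsMulCommutative ↥H := by
  classical
  have key : ∀ r ∈ π, ∃ M : Subgroup G, M.Normal ∧ ¬ r ∣ Nat.card M ∧
      (∃ k, M.index = r ^ k) ∧ commutator G ≤ M := by
    intro r hr
    have : Fact r.Prime := ⟨hπ r hr⟩
    obtain ⟨P⟩ : Nonempty (Sylow r G) := inferInstance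
    have hgt : Nat.card ↥(P : Subgroup G) < 2 * kPi ({r} : Set ℕ) G := by
      refine Nat.lt_of_mul_lt_mul_right (a := (π.erase r).prod (fun q => q ^ (Nat.card G).factorization q)) ?_
      rw [P.card_eq_multiplicity, mul_assoc]
      rw [Finset.mul_prod_erase π (fun q => q ^ (Nat.card G).factorization q) hr]
      exact lt_of_lt_of_le hk (Nat.mul_le_mul_left _ (kPi_le_prime_mul π hπ hr))
    obtain ⟨⟨Q, M, hM, hMQ⟩, hab⟩ := nilpotent_odd hG (fun h => h2 (h ▸ hr)) P hgt
    have hidx : M.index = Nat.card ↥(Q : Subgroup G) :=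
      mul_left_cancel₀ (Nat.card_pos (α := M)).ne' (M.card_mul_index.trans hMQ.card_mul.symm)
    refine ⟨M, hM, ?_, ⟨_, hidx.trans Q.card_eq_multiplicity⟩, ?_⟩
    · have hMi : Nat.card M = (Q : Subgroup G).index :=
        mul_left_cancel₀ (Nat.card_pos (α := ↥(Q : Subgroup G))).ne'
          ((mul_comm _ _).trans (hMQ.card_mul.trans (Q : Subgroup G).card_mul_index.symm))
      rw [hMi]
      exact Sylow.not_dvd_index Q
    · have habQ : IsMulCommutative ↥(Q : Subgroup G) :=
        ⟨⟨fun a b => (Sylow.equiv Q P).injective (by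
          rw [map_mul, map_mul]; exact hab.is_comm.comm _ _)⟩⟩
      let e := hMQ.symm.QuotientMulEquiv
      rw [commutator_def, Subgroup.commutator_le]
      intro a _ b _
      rw [← QuotientGroup.eq_one_iff, ← QuotientGroup.mk'_apply, map_commutatorElement,
        commutatorElement_eq_one_iff_commute]
      exact e.injective (by rw [map_mul, map_mul]; exact habQ.is_comm.comm _ _)
  choose! M hMn hMr hMi hMc using key
  let N : Subgroup G := ⨅ r : π, M r
  have hNle : ∀ r ∈ π, N ≤ M r := fun r hr => iInf_le (fun r : π => M r) ⟨r, hr⟩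
  have hcomm : commutator G ≤ N := le_iInf fun r => hMc r r.2
  have hNn : N.Normal := Subgroup.Normal.of_commutator_le (H := N) (h := hcomm)
  have hN1 : ∀ r : ℕ, r.Prime → r ∣ Nat.card ↥N → r ∉ π := fun r _ hd hrπ =>
    hMr r hrπ (hd.trans (Subgroup.card_dvd_of_le (hNle r hrπ)))
  have hN2 : ∀ r : ℕ, r.Prime → r ∣ N.index → r ∈ π := by
    intro r hr hd
    have : ∀ r : π, (M r).Normal := fun r => hMn r r.2
    let f : G →* ∀ r : π, G ⧸ M r := MonoidHom.mk' (fun g r => QuotientGroup.mk' (M r) g)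
      (fun a b => funext fun r => map_mul _ a b)
    have hker : f.ker = N := by
      ext g
      simp [f, N, funext_iff, Subgroup.mem_iInf, QuotientGroup.eq_one_iff]
    have : N.index ∣ Nat.card (∀ r : π, G ⧸ M r) := by
      rw [← hker, Subgroup.index_ker]
      exact Subgroup.card_subgroup_dvd_card _
    rw [Nat.card_pi] at this
    obtain ⟨q, -, hq⟩ := (Prime.dvd_finset_prod_iff hr.prime _).1 (hd.trans this)
    obtain ⟨k, hk⟩ := hMi q q.2
    rw [← Subgroup.index_eq_card, hk] at hq
    have := (Nat.prime_dvd_prime_iff_eq hr (hπ q q.2)).1 (hr.dvd_of_dvd_pow hq)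
    exact this ▸ q.2
  refine ⟨⟨N, hNn, hN1, hN2⟩, ?_⟩
  have hco : (Nat.card N).Coprime N.index :=
    Nat.coprime_of_dvd fun r hr h1 h2 => hN1 r hr h1 (hN2 r hr h2)
  obtain ⟨H, hH⟩ := Subgroup.exists_left_complement'_of_coprime hco
  have hHc : Nat.card H = N.index :=
    mul_left_cancel₀ (Nat.card_pos (α := N)).ne'
      (((mul_comm _ _).trans hH.card_mul).trans N.card_mul_index.symm)
  have hHi : H.index = Nat.card N :=
    mul_left_cancel₀ (Nat.card_pos (α := H)).ne' (H.card_mul_index.trans hH.card_mul.symm)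
  refine ⟨H, ⟨fun r hr hd => Finset.mem_coe.2 (hN2 r hr (hHc ▸ hd)), fun r hr hrπ hd =>
    hN1 r hr (hHi ▸ hd) (Finset.mem_coe.1 hrπ)⟩, ⟨⟨fun a b => Subtype.ext ?_⟩⟩⟩
  have hab : ⁅(a : G), (b : G)⁆ ∈ H ⊓ N :=
    ⟨H.mul_mem (H.mul_mem (H.mul_mem a.2 b.2) (H.inv_mem a.2)) (H.inv_mem b.2), hcomm (by
      rw [commutator_def]; exact Subgroup.commutator_mem_commutator (Subgroup.mem_top _) (Subgroup.mem_top _))⟩
  rw [hH.disjoint.eq_bot, Subgroup.mem_bot, commutatorElement_eq_one_iff_commute] at hab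
  exact hab.eq

end CfsgLib.ClassesPi
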